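import Mathlib

/-!
# S4842: the arithmetic of the row `³D₄(q)` (helper866)
-/

set_option autoImplicit false
set_option maxHeartbeats 400000

namespace Cfsg.Agent.H866.OZ.D4

theorem exists_odd_prime {q : ℕ} (hq : 2 ≤ q) : ∃ s : ℕ, s.Prime ∧ s ≠ 2 ∧ s ∣ q ^ 2 + 1 := by
  by_contra hcon
  push Not at hcon
  have h3 : ∀ {d : ℕ}, d.Prime → d ∣ q ^ 2 + 1 → d = 2 := by
    intro d hd hdd
    by_contra h
    exact hcon d hd h hdd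
  have h4 := Nat.eq_prime_pow_of_unique_prime_dvd (n := q ^ 2 + 1) (by positivity) h3
  obtain ⟨k, hk⟩ : ∃ k, k = (q ^ 2 + 1).primeFactorsList.length := ⟨_, rfl⟩
  rw [← hk] at h4
  have h5 : 4 ≤ q ^ 2 := by nlinarith
  have h6 : ¬ 4 ∣ q ^ 2 + 1 := by
    intro h
    rcases Nat.even_or_odd q with h7 | h7
    · obtain ⟨a, rfl⟩ := h7
      have : (a + a) ^ 2 + 1 = 4 * a ^ 2 + 1 := by ring
      omega
    · obtain ⟨a, rfl⟩ := h7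
      have : (2 * a + 1) ^ 2 + 1 = 4 * (a ^ 2 + a) + 2 := by ring
      omega
  apply h6
  rw [h4]
  have h7 : 2 ≤ k := by
    by_contra h
    interval_cases k
    · simp at h4
      omega
    · simp at h4
      omega
  calc 4 = 2 ^ 2 := by norm_num
    _ ∣ 2 ^ k := pow_dvd_pow 2 h7

theorem z3 : ∀ x : ZMod 3, x ^ 2 ≠ -1 := by decide

theorem no_dvd {q D d G : ℕ} (hq : 2 ≤ q) {s : ℕ} (hs : s.Prime) (hs2 : s ≠ 2) (hsd : s ∣ q ^ 2 + 1)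
    (hd : D = d ∨ D = 2 * d) (hdG : d ∣ G) (hG : G = q ^ 12 * (q ^ 2 - 1) * (q ^ 6 - 1) * (q ^ 8 + q ^ 4 + 1))
    (h : s ∣ q ^ 6 * ((q ^ 8 + q ^ 4 + 1) * (q ^ 3 + 1) * D)) : False := by
  have : Fact s.Prime := ⟨hs⟩
  have hi : (q : ZMod s) ^ 2 = -1 := by
    have h1 : ((q ^ 2 + 1 : ℕ) : ZMod s) = 0 := (ZMod.natCast_eq_zero_iff _ _).2 hsd
    push_cast at h1
    exact eq_neg_of_add_eq_zero_left h1
  have h2 : (2 : ZMod s) ≠ 0 := by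
    intro h1
    have h2 : ((2 : ℕ) : ZMod s) = 0 := by exact_mod_cast h1
    rw [ZMod.natCast_eq_zero_iff] at h2
    exact hs2 ((Nat.prime_dvd_prime_iff_eq hs Nat.prime_two).1 h2)
  have h3 : (3 : ZMod s) ≠ 0 := by
    intro h1
    have h2 : ((3 : ℕ) : ZMod s) = 0 := by exact_mod_cast h1
    rw [ZMod.natCast_eq_zero_iff] at h2
    have h4 : s = 3 := (Nat.prime_dvd_prime_iff_eq hs Nat.prime_three).1 h2
    subst h4
    exact z3 _ hi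
  have hq0 : (q : ZMod s) ≠ 0 := by
    intro h1
    rw [h1] at hi
    have : (1 : ZMod s) = 0 := by linear_combination hi
    exact one_ne_zero this
  have hA : (q : ZMod s) ^ 8 + (q : ZMod s) ^ 4 + 1 = 3 := by
    have e4 : (q : ZMod s) ^ 4 = 1 := by
      calc (q : ZMod s) ^ 4 = ((q : ZMod s) ^ 2) ^ 2 := by ring
        _ = 1 := by rw [hi]; ring
    calc (q : ZMod s) ^ 8 + (q : ZMod s) ^ 4 + 1 = ((q : ZMod s) ^ 4) ^ 2 + (q : ZMod s) ^ 4 + 1 := by ring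
      _ = 3 := by rw [e4]; ring
  have h6 : (q : ZMod s) ^ 6 = -1 := by
    calc (q : ZMod s) ^ 6 = ((q : ZMod s) ^ 2) ^ 3 := by ring
      _ = -1 := by rw [hi]; ring
  have hq3 : (q : ZMod s) ^ 3 + 1 ≠ 0 := by
    intro h1
    have h4 : (q : ZMod s) = 1 := by
      have : (q : ZMod s) ^ 3 = -(q : ZMod s) := by
        calc (q : ZMod s) ^ 3 = (q : ZMod s) ^ 2 * q := by ring
          _ = _ := by rw [hi]; ring
      rw [this] at h1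
      linear_combination (-1 : ZMod s) * h1
    rw [h4] at hi
    apply h2
    linear_combination hi
  have h7 : ((q ^ 6 * ((q ^ 8 + q ^ 4 + 1) * (q ^ 3 + 1) * D) : ℕ) : ZMod s) = 0 := (ZMod.natCast_eq_zero_iff _ _).2 h
  push_cast at h7
  rw [hA] at h7
  have hD : (D : ZMod s) = 0 := by
    rcases mul_eq_zero.1 h7 with h8 | h8
    · exact absurd h8 (pow_ne_zero _ hq0)
    · rcases mul_eq_zero.1 h8 with h9 | h9
      · exact absurd h9 (mul_ne_zero h3 hq3)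
      · exact h9
  have hd0 : (d : ZMod s) = 0 := by
    rcases hd with rfl | rfl
    · exact hD
    · push_cast at hD
      rcases mul_eq_zero.1 hD with h8 | h8
      · exact absurd h8 h2
      · exact h8
  obtain ⟨k, hk⟩ := hdG
  have hG0 : (G : ZMod s) = 0 := by rw [hk, Nat.cast_mul, hd0, zero_mul]
  have h12 : (1 : ℕ) ≤ q ^ 2 := Nat.one_le_pow _ _ (by omega)
  have h16 : (1 : ℕ) ≤ q ^ 6 := Nat.one_le_pow _ _ (by omega)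
  rw [hG] at hG0
  push_cast [Nat.cast_sub h12, Nat.cast_sub h16] at hG0
  rw [hA, h6, hi] at hG0
  have h9 : (q : ZMod s) ^ 12 = 1 := by
    calc (q : ZMod s) ^ 12 = ((q : ZMod s) ^ 6) ^ 2 := by ring
      _ = 1 := by rw [h6]; ring
  rw [h9] at hG0
  have h10 : (2 : ZMod s) * 2 * 3 = 0 := by linear_combination hG0
  exact (mul_ne_zero (mul_ne_zero h2 h2) h3) h10

/-- **the cuspidal case** -/
theorem arith_cusp {q N D d G : ℕ} (hq : 2 ≤ q) (hD : D ≠ 0) (hd : D = d ∨ D = 2 * d) (hdG : d ∣ G)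
    (hG : G = q ^ 12 * (q ^ 2 - 1) * (q ^ 6 - 1) * (q ^ 8 + q ^ 4 + 1)) {c : ℂ}
    (hc : c = (q : ℂ) ^ 12 ∨ c = -(q : ℂ) ^ 6 ∨ c = -(q : ℂ) ^ 18)
    (h : c * N = (q : ℂ) ^ 12 * (N - ((q : ℂ) ^ 8 + (q : ℂ) ^ 4 + 1) * ((q : ℂ) ^ 3 + 1) * D)) : False := by
  obtain ⟨s, hs, hs2, hsd⟩ := exists_odd_prime hq
  have hq0 : (q : ℂ) ≠ 0 := by exact_mod_cast (by omega : q ≠ 0)
  have h61 : s ∣ q ^ 6 + 1 := by
    have : q ^ 6 + 1 = (q ^ 2 + 1) * (q ^ 4 + 1 - q ^ 2) := by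
      obtain ⟨x, hx⟩ := Nat.exists_eq_add_of_le (show q ^ 2 ≤ q ^ 4 + 1 from
        (Nat.pow_le_pow_right (by omega) (by norm_num)).trans (Nat.le_succ _))
      rw [hx, Nat.add_sub_cancel_left]
      zify at hx ⊢
      linear_combination (-((q : ℤ) ^ 2 + 1)) * (-1 : ℤ) * hx
    rw [this]
    exact hsd.mul_right _
  rcases hc with rfl | rfl | rfl
  · have h1 : (q : ℂ) ^ 12 * (((q : ℂ) ^ 8 + (q : ℂ) ^ 4 + 1) * ((q : ℂ) ^ 3 + 1) * D) = 0 := by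
      linear_combination h
    have h2 : q ^ 12 * ((q ^ 8 + q ^ 4 + 1) * (q ^ 3 + 1) * D) = 0 := by exact_mod_cast h1
    have h3 : q ^ 12 * ((q ^ 8 + q ^ 4 + 1) * (q ^ 3 + 1) * D) ≠ 0 := by positivity
    exact h3 h2
  · have h1 : (q : ℂ) ^ 6 * ((N : ℂ) * ((q : ℂ) ^ 6 + 1)) =
        (q : ℂ) ^ 6 * ((q : ℂ) ^ 6 * (((q : ℂ) ^ 8 + (q : ℂ) ^ 4 + 1) * ((q : ℂ) ^ 3 + 1) * D)) := by
      linear_combination (-1 : ℂ) * h
    have h2 := mul_left_cancel₀ (pow_ne_zero 6 hq0) h1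
    have h3 : N * (q ^ 6 + 1) = q ^ 6 * ((q ^ 8 + q ^ 4 + 1) * (q ^ 3 + 1) * D) := by exact_mod_cast h2
    exact no_dvd hq hs hs2 hsd hd hdG hG (h3 ▸ h61.mul_left _)
  · have h1 : (q : ℂ) ^ 12 * ((N : ℂ) * ((q : ℂ) ^ 6 + 1)) =
        (q : ℂ) ^ 12 * (((q : ℂ) ^ 8 + (q : ℂ) ^ 4 + 1) * ((q : ℂ) ^ 3 + 1) * D) := by
      linear_combination (-1 : ℂ) * h
    have h2 := mul_left_cancel₀ (pow_ne_zero 12 hq0) h1
    have h3 : N * (q ^ 6 + 1) = (q ^ 8 + q ^ 4 + 1) * (q ^ 3 + 1) * D := by exact_mod_cast h2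
    have h4 : s ∣ (q ^ 8 + q ^ 4 + 1) * (q ^ 3 + 1) * D := h3 ▸ h61.mul_left _
    exact no_dvd hq hs hs2 hsd hd hdG hG (h4.mul_left _)

/-- **the principal case** -/
theorem arith_prin {q N : ℕ} (hq : 2 ≤ q) {z0 z1 : ℤ} (hz : z0 = 0 ∨ 2 * z0.natAbs ≤ 12) {dU d0 d1 : ℂ}
    (h : (q : ℂ) ^ 12 * N = (q : ℂ) ^ 12 * (N - ((q : ℂ) ^ 8 + (q : ℂ) ^ 4 + 1) * ((q : ℂ) ^ 3 + 1) * d0 -
      ((q : ℂ) ^ 8 + (q : ℂ) ^ 4 + 1) * ((q : ℂ) + 1) * d1 +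
      ((q : ℂ) ^ 8 + (q : ℂ) ^ 4 + 1) * ((q : ℂ) ^ 3 + 1) * ((q : ℂ) + 1) * dU))
    (h0 : d0 = ((q : ℂ) + 1) / 2 * dU - ((q : ℂ) - 1) / 2 * z0)
    (h1 : d1 = ((q : ℂ) ^ 3 + 1) / 2 * dU - ((q : ℂ) ^ 3 - 1) / 2 * z1) : z0 = 0 := by
  have hq0 : (q : ℂ) ≠ 0 := by exact_mod_cast (by omega : q ≠ 0)
  have hq1 : (q : ℂ) - 1 ≠ 0 := by
    rw [sub_ne_zero]
    exact_mod_cast (by omega : q ≠ 1)
  have hq3 : (q : ℂ) + 1 ≠ 0 := by exact_mod_cast (by omega : q + 1 ≠ 0)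
  have hA : (q : ℂ) ^ 8 + (q : ℂ) ^ 4 + 1 ≠ 0 := by exact_mod_cast (by positivity : q ^ 8 + q ^ 4 + 1 ≠ 0)
  have h2 : ((q : ℂ) ^ 12 * ((q : ℂ) ^ 8 + (q : ℂ) ^ 4 + 1) * ((q : ℂ) + 1) * ((q : ℂ) - 1)) *
      (((q : ℂ) ^ 2 - q + 1) * z0 + ((q : ℂ) ^ 2 + q + 1) * z1) = 0 := by
    rw [h0, h1] at h
    linear_combination (-2 : ℂ) * h
  have h3 : ((q : ℂ) ^ 2 - q + 1) * z0 + ((q : ℂ) ^ 2 + q + 1) * z1 = 0 := by
    rcases mul_eq_zero.1 h2 with h4 | h4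
    · exact absurd h4 (mul_ne_zero (mul_ne_zero (mul_ne_zero (pow_ne_zero _ hq0) hA) hq3) hq1)
    · exact h4
  have h4 : ((q : ℤ) ^ 2 - q + 1) * z0 + ((q : ℤ) ^ 2 + q + 1) * z1 = 0 := by exact_mod_cast h3
  have h5 : ((q : ℤ) ^ 2 + q + 1) ∣ ((q : ℤ) ^ 2 - q + 1) * z0 := ⟨-z1, by linear_combination h4⟩
  have hco : IsCoprime ((q : ℤ) ^ 2 + q + 1) ((q : ℤ) ^ 2 - q + 1) := by
    obtain ⟨k, hk⟩ : Even ((q : ℤ) * (q + 1)) := Int.even_mul_succ_self _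
    refine ⟨1 + k * (q - 1), -k * (q + 1), ?_⟩
    linear_combination hk
  have h6 : ((q : ℤ) ^ 2 + q + 1) ∣ z0 := hco.dvd_of_dvd_mul_left h5
  by_contra hne
  have h7 := Int.natAbs_le_of_dvd_ne_zero h6 hne
  have h8 : ((q : ℤ) ^ 2 + q + 1).natAbs = q ^ 2 + q + 1 := by
    have : ((q : ℤ) ^ 2 + q + 1) = ((q ^ 2 + q + 1 : ℕ) : ℤ) := by push_cast; ring
    rw [this, Int.natAbs_natCast]
  have h9 : 7 ≤ q ^ 2 + q + 1 := by nlinarith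
  rcases hz with hz | hz
  · exact hne hz
  · omega

end Cfsg.Agent.H866.OZ.D4
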