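import Mathlib
import Cfsg.Agent.H866.OZ.Elliptic
import Cfsg.Agent.H866.OZ.Mod

/-!
# S4842: the projections of rank one and the torus (helper866)
-/

set_option autoImplicit false
set_option linter.unusedSectionVars false
set_option maxHeartbeats 400000

namespace Cfsg.Agent.H866.OZ

open CoxeterSystem Cfsg.Agent.ChevalleyStructure.CoxeterGeom Cfsg.Agent.Tits.Roots Cfsg.Agent.Tits.Core
  Cfsg.Agent.Tits.Exchange Cfsg.Agent.Nodes.Reps Cfsg.Agent.Nodes.BNOf Cfsg.Agent.Nodes.StabComb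
  Cfsg.Agent.Nodes.Bruhat Cfsg.Agent.Nodes.OppDec Cfsg.Agent.Nodes.LeviDec Cfsg.Agent.Nodes.NormalForm
open Cfsg.Agent.ChevalleyStructure.SL2Hom (up lo mem_closure_SL2)
open Cfsg.Agent.Nodes.RGDFoldSL (wS hS coe_wS coe_hS)
open LinearMap (trace)

section Alg

variable {F : Type*} [Field F] [Fintype F] [DecidableEq F] {A : Type*} [Ring A] [Algebra ℂ A]
  {ψ : Matrix.SpecialLinearGroup (Fin 2) F →* A} {ε : A} (hεε : ε * ε = ε) (hεc : ∀ g, ε * ψ g = ψ g * ε)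

include hεε hεc

theorem piA_piA : piA ψ ε * piA ψ ε = piA ψ ε := by
  have h1 : th ψ ε * eta ψ * piA ψ ε = piA ψ ε := by
    rw [mul_assoc, eta_piA hεε hεc, th_piA hεε hεc]
  have h2 : uu ψ ε * eta ψ * piA ψ ε = piA ψ ε := by
    rw [mul_assoc, eta_piA hεε hεc, uu_piA hεε hεc]
  conv_lhs => rw [show piA ψ ε * piA ψ ε =
    ((qq F + 1)⁻¹ • (qq F • (th ψ ε * eta ψ) + uu ψ ε * eta ψ)) * piA ψ ε from rfl]
  rw [smul_mul_assoc, add_mul, smul_mul_assoc, h1, h2]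
  have := qq_add_ne (F := F)
  match_scalars
  field_simp

theorem piS_piS : piS ψ ε * piS ψ ε = piS ψ ε := by
  have h1 : th ψ ε * eta ψ * piS ψ ε = (-(qq F)⁻¹) • piS ψ ε := by
    rw [mul_assoc, eta_piS hεε hεc, th_piS hεε hεc]
  have h2 : uu ψ ε * eta ψ * piS ψ ε = piS ψ ε := by
    rw [mul_assoc, eta_piS hεε hεc, uu_piS hεε hεc]
  conv_lhs => rw [show piS ψ ε * piS ψ ε =
    ((qq F + 1)⁻¹ • (qq F • (uu ψ ε * eta ψ - th ψ ε * eta ψ))) * piS ψ ε from rfl]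
  rw [smul_mul_assoc, smul_mul_assoc, sub_mul, h1, h2]
  have := qq_add_ne (F := F)
  have := qq_ne_zero (F := F)
  match_scalars
  field_simp
  ring

/-- an element which normalises commutes with the projections -/
theorem comm_th_eta {τ : A} (hu : τ * uu ψ ε = uu ψ ε * τ) (hh : ∀ c : F, c ≠ 0 → τ * ψ (hS c) = ψ (hS c) * τ)
    {d : F} (hd : d ≠ 0) (hw : τ * ψ (wS 1) = ψ (wS 1) * ψ (hS d) * τ) :
    τ * (th ψ ε * eta ψ) = th ψ ε * eta ψ * τ := by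
  have he := comm_eta ψ hh
  calc τ * (th ψ ε * eta ψ) = τ * uu ψ ε * ψ (wS 1) * uu ψ ε * eta ψ := by rw [th]; simp only [mul_assoc]
    _ = uu ψ ε * (τ * ψ (wS 1)) * uu ψ ε * eta ψ := by rw [hu]; simp only [mul_assoc]
    _ = uu ψ ε * ψ (wS 1) * ψ (hS d) * (τ * uu ψ ε) * eta ψ := by rw [hw]; simp only [mul_assoc]
    _ = uu ψ ε * ψ (wS 1) * (ψ (hS d) * uu ψ ε) * (τ * eta ψ) := by rw [hu]; simp only [mul_assoc]
    _ = uu ψ ε * ψ (wS 1) * uu ψ ε * (ψ (hS d) * eta ψ) * τ := by rw [hS_uu hεε hεc hd, he]; simp only [mul_assoc]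
    _ = _ := by rw [hS_eta ψ hd, th]

theorem comm_piA {τ : A} (hu : τ * uu ψ ε = uu ψ ε * τ) (hh : ∀ c : F, c ≠ 0 → τ * ψ (hS c) = ψ (hS c) * τ)
    {d : F} (hd : d ≠ 0) (hw : τ * ψ (wS 1) = ψ (wS 1) * ψ (hS d) * τ) : τ * piA ψ ε = piA ψ ε * τ := by
  have h1 := comm_th_eta hεε hεc hu hh hd hw
  have h2 : τ * (uu ψ ε * eta ψ) = uu ψ ε * eta ψ * τ := by
    rw [← mul_assoc, hu, mul_assoc, comm_eta ψ hh, mul_assoc]
  rw [piA, mul_smul_comm, smul_mul_assoc, mul_add, add_mul, mul_smul_comm, smul_mul_assoc, h1, h2]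

theorem comm_piS {τ : A} (hu : τ * uu ψ ε = uu ψ ε * τ) (hh : ∀ c : F, c ≠ 0 → τ * ψ (hS c) = ψ (hS c) * τ)
    {d : F} (hd : d ≠ 0) (hw : τ * ψ (wS 1) = ψ (wS 1) * ψ (hS d) * τ) : τ * piS ψ ε = piS ψ ε * τ := by
  have h1 := comm_th_eta hεε hεc hu hh hd hw
  have h2 : τ * (uu ψ ε * eta ψ) = uu ψ ε * eta ψ * τ := by
    rw [← mul_assoc, hu, mul_assoc, comm_eta ψ hh, mul_assoc]
  rw [piS, mul_smul_comm, smul_mul_assoc, mul_smul_comm, smul_mul_assoc, mul_sub, sub_mul, h1, h2]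

end Alg

variable {I W Y : Type*} [Fintype I] [DecidableEq I] [Group W] [Group Y] [Finite Y] {M : CoxeterMatrix I}
  {cs : CoxeterSystem M W} {A : I → I → ℤ} {h : IsCartan M A} {p : ℕ} {T : Subgroup Y} {n : I → Y}
  {X : (I → ℤ) → Subgroup Y} {V : Type*} [AddCommGroup V] [Module ℂ V] [FiniteDimensional ℂ V]
  {ρ : Representation ℂ Y V} {F : Type*} [Field F] [Fintype F] [DecidableEq F] (R : RGD cs h p T n X)
  {i : I} {Φ : Matrix.SpecialLinearGroup (Fin 2) F →* Y}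

include R

/-- **the difference of the traces is a small integer** -/
theorem Co.small [Finite W] (C : Co T n X i Φ) (hG : GG cs h T X = ⊤) (hρ : ρ.IsIrreducible)
    (hT : ∀ s ∈ T, ∀ t ∈ T, s * t = t * s) (hn : ∀ t ∈ T, ∃ d : F, d ≠ 0 ∧ t * n i = n i * Φ (hS d) * t) :
    ∃ z : ℤ, trace ℂ V (piA (ps ρ Φ) (eV ρ cs h X i)) - trace ℂ V (piS (ps ρ Φ) (eV ρ cs h X i)) = z ∧
      (z = 0 ∨ 2 * z.natAbs ≤ Nat.card W) := by
  have hεε : eV ρ cs h X i * eV ρ cs h X i = eV ρ cs h X i := eV_eV R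
  have hεc : ∀ B, eV ρ cs h X i * ps ρ Φ B = ps ρ Φ B * eV ρ cs h X i := fun B => C.eV_comm R B
  obtain ⟨π, hπd⟩ : ∃ π, π = piA (ps ρ Φ) (eV ρ cs h X i) := ⟨_, rfl⟩
  obtain ⟨σ, hσd⟩ : ∃ σ, σ = piS (ps ρ Φ) (eV ρ cs h X i) := ⟨_, rfl⟩
  have hπ : π * π = π := by rw [hπd]; exact piA_piA hεε hεc
  have hσ : σ * σ = σ := by rw [hσd]; exact piS_piS hεε hεc
  have huπ : eU ρ cs h X * π = π := by rw [hπd, ← C.uu_eq R]; exact uu_piA hεε hεc
  have huσ : eU ρ cs h X * σ = σ := by rw [hσd, ← C.uu_eq R]; exact uu_piS hεε hεc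
  have htπ : th (ps ρ Φ) (eV ρ cs h X i) * π = π := by rw [hπd]; exact th_piA hεε hεc
  have htσ : th (ps ρ Φ) (eV ρ cs h X i) * σ = (-(qq F)⁻¹) • σ := by rw [hσd]; exact th_piS hεε hεc
  have hcomm : ∀ t ∈ T, ρ t * π = π * ρ t ∧ ρ t * σ = σ * ρ t := by
    intro t ht
    obtain ⟨d, hd, e⟩ := hn t ht
    have hu : ρ t * uu (ps ρ Φ) (eV ρ cs h X i) = uu (ps ρ Φ) (eV ρ cs h X i) * ρ t := by
      rw [C.uu_eq R]
      exact T_comm_eU R ht
    have hh : ∀ c : F, c ≠ 0 → ρ t * ps ρ Φ (hS c) = ps ρ Φ (hS c) * ρ t := by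
      intro c hc
      rw [ps_apply, ← map_mul, ← map_mul, hT t ht _ (C.tor c hc)]
    have hw : ρ t * ps ρ Φ (wS 1) = ps ρ Φ (wS 1) * ps ρ Φ (hS d) * ρ t := by
      rw [ps_apply, ps_apply, C.w, ← map_mul, ← map_mul, ← map_mul, e]
    rw [hπd, hσd]
    exact ⟨comm_piA hεε hεc hu hh hd hw, comm_piS hεε hεc hu hh hd hw⟩
  -- an eigenvector bounds the dimension
  have key : ∀ {κ : Module.End ℂ V} {c : ℂ}, κ * κ = κ → eU ρ cs h X * κ = κ →
      th (ps ρ Φ) (eV ρ cs h X i) * κ = c • κ → (∀ t ∈ T, ρ t * κ = κ * ρ t) → κ ≠ 0 →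
      2 * Module.finrank ℂ (LinearMap.range (eU ρ cs h X)) ≤ Nat.card W := by
    intro κ c h1 h2 h3 h4 h5
    obtain ⟨v, hv0, hv, hvT⟩ := exists_eigen_T (ρ := ρ) h1 h4 h5 hT
    have h6 : eU ρ cs h X v = v := by
      conv_lhs => rw [← hv]
      have := LinearMap.congr_fun h2 v
      rw [Module.End.mul_apply, hv] at this
      rw [hv]
      exact this
    refine finrank_M R hG hρ (i := i) hv0 (fun u hu => ?_) hvT (c := c) ?_
    · rw [← h6]
      exact eU_fix R hu v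
    · have h7 := LinearMap.congr_fun h3 v
      rw [th_eq hεε hεc, C.uu_eq R, ps_apply, C.w, Module.End.mul_apply, LinearMap.smul_apply, hv, Module.End.mul_apply,
        Module.End.mul_apply, h6] at h7
      exact h7
  have hle : ∀ {κ : Module.End ℂ V}, eU ρ cs h X * κ = κ →
      Module.finrank ℂ (LinearMap.range κ) ≤ Module.finrank ℂ (LinearMap.range (eU ρ cs h X)) := by
    intro κ h2
    refine Submodule.finrank_mono ?_
    rintro _ ⟨v, rfl⟩
    exact ⟨κ v, LinearMap.congr_fun h2 v⟩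
  refine ⟨(Module.finrank ℂ (LinearMap.range π) : ℤ) - Module.finrank ℂ (LinearMap.range σ), ?_, ?_⟩
  · rw [← hπd, ← hσd, trace_idem hπ, trace_idem hσ]
    push_cast
    ring
  · by_cases h1 : π = 0
    · by_cases h2 : σ = 0
      · left
        rw [h1, h2, LinearMap.range_zero, finrank_bot]
        simp
      · right
        have h3 := key hσ huσ htσ (fun t ht => (hcomm t ht).2) h2
        have h4 := hle huπ
        have h5 := hle huσ
        omega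
    · right
      have h3 := key (c := 1) hπ huπ (by rw [htπ, one_smul]) (fun t ht => (hcomm t ht).1) h1
      have h4 := hle huπ
      have h5 := hle huσ
      omega

end Cfsg.Agent.H866.OZ
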